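import Cfsg.Agent.H78.Pw.Base

/-!
# Counting `p`-singular elements (helper335)

`all_of_conj` : one class of elements of order `p ≥ 3`, no elements of order `p²`: every element is a product of two
elements of order prime to `p`.
-/

set_option autoImplicit false

namespace Cfsg.Agent.H335.Pw

open Cfsg.Agent.H78.Pw

universe u

variable {G : Type u} [Group G]

theorem orderOf_cj (u x : G) : orderOf (u * x * u⁻¹) = orderOf x := by
  have h : u * x * u⁻¹ = MulAut.conj u x := rfl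
  rw [h, MulEquiv.orderOf_eq]

/-- `y` is determined by `y ^ p`, if its order is prime to `p` -/
theorem eq_of_pow {p : ℕ} {y y' : G} (hy : (orderOf y).Coprime p) (hy' : (orderOf y').Coprime p)
    (h : y ^ p = y' ^ p) : y = y' := by
  have h1 : orderOf (y ^ p) = orderOf y := Nat.Coprime.orderOf_pow hy
  have h2 : orderOf (y' ^ p) = orderOf y' := Nat.Coprime.orderOf_pow hy'
  obtain ⟨a, ha⟩ := exists_pow_eq_self_of_coprime hy.symm
  have h3 : orderOf y = orderOf y' := by rw [← h1, ← h2, h]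
  have h4 : y' ^ (p * a) = y' := by
    have h5 : y ^ (p * a) = y := by rw [pow_mul]; exact ha
    have h6 : y ^ (p * a) = y ^ 1 := by rw [h5, pow_one]
    have h7 := pow_eq_pow_iff_modEq.1 h6
    rw [h3] at h7
    rw [pow_eq_pow_iff_modEq.2 h7, pow_one]
  rw [← ha, ← h4, pow_mul, h]

/-- decomposition of an element -/
theorem exists_split {p : ℕ} (hp : p.Prime) {g : G} (hg : p ∣ orderOf g) (h2 : ¬ p * p ∣ orderOf g)
    (_h0 : orderOf g ≠ 0) : ∃ x y : G, g = x * y ∧ Commute x y ∧ x ^ p = 1 ∧ x ≠ 1 ∧ (orderOf y).Coprime p := by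
  obtain ⟨m, hm⟩ := hg
  have hpm : ¬ p ∣ m := fun h => h2 (by rw [hm]; exact Nat.mul_dvd_mul_left p h)
  have hcop : Nat.Coprime p m := (Nat.Prime.coprime_iff_not_dvd hp).2 hpm
  obtain ⟨k, hk1, hk2⟩ := Nat.chineseRemainder (n := p) (m := m) hcop 1 0
  obtain ⟨c, hc⟩ := (Nat.modEq_zero_iff_dvd.1 hk2)
  refine ⟨g ^ k, (g ^ k)⁻¹ * g, by group, ?_, ?_, ?_, ?_⟩
  · exact ((Commute.refl (g ^ k)).inv_right).mul_right ((Commute.refl g).pow_left k)
  · rw [hc, ← pow_mul]
    have : m * c * p = orderOf g * c := by rw [hm]; ring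
    rw [this, pow_mul, pow_orderOf_eq_one, one_pow]
  · intro h
    have h3 := orderOf_dvd_of_pow_eq_one h
    have h4 : p ∣ k := (Dvd.intro m hm.symm).trans h3
    have h5 : (0 : ℕ) ≡ 1 [MOD p] := ((Nat.modEq_zero_iff_dvd.2 h4).symm.trans hk1)
    have h6 := (Nat.modEq_iff_dvd' (by norm_num)).1 h5
    exact hp.one_lt.ne' (Nat.dvd_one.1 h6)
  · -- the order divides `m`
    have h3 : ((g ^ k)⁻¹ * g) ^ m = 1 := by
      have hcm : Commute (g ^ k)⁻¹ g := ((Commute.refl g).pow_left k).inv_left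
      rw [hcm.mul_pow, inv_pow, ← pow_mul]
      have h4 : g ^ (k * m) = g ^ m := by
        apply pow_eq_pow_iff_modEq.2
        rw [hm]
        have := Nat.ModEq.mul_right' m hk1
        rwa [one_mul] at this
      rw [h4, inv_mul_cancel]
    exact Nat.Coprime.of_dvd_left (orderOf_dvd_of_pow_eq_one h3) hcop.symm

theorem card_singular [Finite G] {p : ℕ} (hp : p.Prime) {x₀ : G} (hx₀ : x₀ ^ p = 1) (hx₀1 : x₀ ≠ 1)
    (hconj : ∀ x : G, x ^ p = 1 → x ≠ 1 → ∃ t : G, t * x * t⁻¹ = x₀) (hexp : ∀ g : G, ¬ p * p ∣ orderOf g) :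
    Nat.card {g : G // p ∣ orderOf g} * p ≤ Nat.card G := by
  classical
  have hsp : ∀ g : {g : G // p ∣ orderOf g}, ∃ x y : G, g.1 = x * y ∧ Commute x y ∧ x ^ p = 1 ∧ x ≠ 1 ∧
      (orderOf y).Coprime p := fun g => exists_split hp g.2 (hexp g.1) (orderOf_pos g.1).ne'
  choose x y e hc hx hx1 hy using hsp
  have ht : ∀ z : G, ∃ t : G, (z ^ p = 1 → z ≠ 1 → t * z * t⁻¹ = x₀) := by
    intro z
    by_cases h : z ^ p = 1 ∧ z ≠ 1
    · obtain ⟨t, ht⟩ := hconj z h.1 h.2
      exact ⟨t, fun _ _ => ht⟩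
    · exact ⟨1, fun h1 h2 => absurd ⟨h1, h2⟩ h⟩
  choose t ht using ht
  have hord : orderOf x₀ = p := by
    have := Fact.mk hp
    exact orderOf_eq_prime hx₀ hx₀1
  let f : {g : G // p ∣ orderOf g} × Fin p → G := fun a =>
    (t (x a.1))⁻¹ * (x₀ ^ (a.2 : ℕ) * (t (x a.1) * y a.1 * (t (x a.1))⁻¹))
  have hcomm : ∀ a : {g : G // p ∣ orderOf g}, Commute x₀ (t (x a) * y a * (t (x a))⁻¹) := by
    intro a
    have h1 := ht (x a) (hx a) (hx1 a)
    have h2 := (hc a).eq
    change x₀ * _ = _ * x₀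
    rw [← h1]
    calc t (x a) * x a * (t (x a))⁻¹ * (t (x a) * y a * (t (x a))⁻¹) = t (x a) * (x a * y a) * (t (x a))⁻¹ := by group
      _ = t (x a) * (y a * x a) * (t (x a))⁻¹ := by rw [h2]
      _ = _ := by group
  have hf : Function.Injective f := by
    rintro ⟨g, i⟩ ⟨g', i'⟩ h
    change (t (x g))⁻¹ * (x₀ ^ (i : ℕ) * (t (x g) * y g * (t (x g))⁻¹)) =
      (t (x g'))⁻¹ * (x₀ ^ (i' : ℕ) * (t (x g') * y g' * (t (x g'))⁻¹)) at h
    set c := x₀ ^ (i : ℕ) * (t (x g) * y g * (t (x g))⁻¹) with hcd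
    set c' := x₀ ^ (i' : ℕ) * (t (x g') * y g' * (t (x g'))⁻¹) with hcd'
    have hc1 : Commute x₀ c := ((Commute.refl x₀).pow_right _).mul_right (hcomm g)
    have hc2 : Commute x₀ c' := ((Commute.refl x₀).pow_right _).mul_right (hcomm g')
    have h1 : t (x g') = c' * c⁻¹ * t (x g) := by
      have : c = t (x g) * ((t (x g'))⁻¹ * c') := by rw [← h]; group
      rw [this]; group
    have h2 : Commute x₀ (c' * c⁻¹) := hc2.mul_right hc1.inv_right
    have hxx : x g = x g' := by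
      have e1 := ht (x g) (hx g) (hx1 g)
      have e2 := ht (x g') (hx g') (hx1 g')
      have e3 : x g = (t (x g))⁻¹ * x₀ * t (x g) := by rw [← e1]; group
      have e4 : x g' = (t (x g'))⁻¹ * x₀ * t (x g') := by rw [← e2]; group
      rw [e3, e4, h1]
      have e5 : (c' * c⁻¹)⁻¹ * x₀ * (c' * c⁻¹) = x₀ := by
        rw [mul_assoc, h2.eq]; group
      calc (t (x g))⁻¹ * x₀ * t (x g) = (t (x g))⁻¹ * ((c' * c⁻¹)⁻¹ * x₀ * (c' * c⁻¹)) * t (x g) := by rw [e5]
        _ = _ := by group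
    have hcc : c = c' := by
      have e1 := h
      rw [hxx] at e1
      exact mul_left_cancel e1
    have hcp : c ^ p = (t (x g) * y g * (t (x g))⁻¹) ^ p := by
      rw [hcd, ((hcomm g).pow_left _).mul_pow, ← pow_mul, mul_comm, pow_mul, hx₀, one_pow, one_mul]
    have hcp' : c' ^ p = (t (x g') * y g' * (t (x g'))⁻¹) ^ p := by
      rw [hcd', ((hcomm g').pow_left _).mul_pow, ← pow_mul, mul_comm, pow_mul, hx₀, one_pow, one_mul]
    have hyy : t (x g) * y g * (t (x g))⁻¹ = t (x g') * y g' * (t (x g'))⁻¹ := by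
      refine eq_of_pow (p := p) ?_ ?_ (by rw [← hcp, ← hcp', hcc])
      · rw [orderOf_cj]; exact hy g
      · rw [orderOf_cj]; exact hy g'
    have hyy' : y g = y g' := by
      rw [← hxx] at hyy
      have := mul_right_cancel hyy
      exact mul_left_cancel this
    have hgg : g = g' := Subtype.ext (by rw [e g, e g', hxx, hyy'])
    subst hgg
    have hi : x₀ ^ (i : ℕ) = x₀ ^ (i' : ℕ) := by
      rw [hcd, hcd'] at hcc
      exact mul_right_cancel hcc
    have hii := pow_eq_pow_iff_modEq.1 hi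
    rw [hord] at hii
    have : (i : ℕ) = i' := by
      have h5 : (i : ℕ) % p = (i' : ℕ) % p := hii
      rwa [Nat.mod_eq_of_lt i.2, Nat.mod_eq_of_lt i'.2] at h5
    rw [Fin.ext this]
  have h1 := Nat.card_le_card_of_injective f hf
  rwa [Nat.card_prod, Nat.card_fin] at h1

theorem all_of_conj [Finite G] {p : ℕ} (hp : p.Prime) (h3 : 3 ≤ p) {x₀ : G} (hx₀ : x₀ ^ p = 1) (hx₀1 : x₀ ≠ 1)
    (hconj : ∀ x : G, x ^ p = 1 → x ≠ 1 → ∃ t : G, t * x * t⁻¹ = x₀) (hexp : ∀ g : G, ¬ p * p ∣ orderOf g) :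
    All p G := by
  classical
  apply All.of_half
  have h1 := card_singular hp hx₀ hx₀1 hconj hexp
  have h2 : Nat.card {g : G // p ∣ orderOf g} + Nat.card {g : G // (orderOf g).Coprime p} = Nat.card G := by
    have e1 : Nat.card {g : G // (orderOf g).Coprime p} = Nat.card {g : G // ¬ p ∣ orderOf g} :=
      Nat.card_congr (Equiv.subtypeEquivRight (fun g : G => show (orderOf g).Coprime p ↔ ¬ p ∣ orderOf g by
        rw [Nat.coprime_comm, Nat.Prime.coprime_iff_not_dvd hp]))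
    rw [e1, ← Nat.card_sum]
    exact Nat.card_congr (Equiv.sumCompl _)
  have h4 : 0 < Nat.card G := Nat.card_pos
  have h5 : Nat.card {g : G // p ∣ orderOf g} * 3 ≤ Nat.card G := (Nat.mul_le_mul_left _ h3).trans h1
  omega

/-- from a covering by one class -/
theorem all_of_cover {n : ℕ} {x : G} (hx : (orderOf x).Coprime n)
    (h : ∀ g : G, g ≠ 1 → ∃ u v : G, g = (u * x * u⁻¹) * (v * x * v⁻¹)) : All n G := by
  intro g
  by_cases hg : g = 1
  · rw [hg]; exact Pr.one n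
  obtain ⟨u, v, e⟩ := h g hg
  exact Pr.mk e (by rwa [orderOf_cj]) (by rwa [orderOf_cj])

end Cfsg.Agent.H335.Pw
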