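import Cfsg.Agent.H335.Pw.Count
import Cfsg.Agent.S2461
import Cfsg.Agent.S2462

/-!
# The defining characteristic for `G₂(q)`, `³D₄(q)` (S2465, helper335)

`own_G2`, `own_D4` : every element is a product of two elements of order prime to the characteristic `p`;
`pw_of_own` : with two `p`-elements (`p ≥ 5`) this gives the row statement.
-/

set_option autoImplicit false

namespace Cfsg.Agent.H335.Pw

open Cfsg Cfsg.Agent.H78.Pw

theorem own_G2 {F : Type*} [Field F] [Fintype F] (p : ℕ) [Fact p.Prime] [CharP F p] (h3 : 3 ≤ Fintype.card F) :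
    All p ↥(Cfsg.Lie.chevG2.group F) := by
  obtain ⟨x, hx, h⟩ := Cfsg.Agent.S2461.result p h3
  exact all_of_cover ((Nat.Prime.coprime_iff_not_dvd Fact.out).2 hx).symm h

theorem own_D4 {K : Type*} [Field K] [Fintype K] (p : ℕ) [Fact p.Prime] [CharP K p] (q : ℕ) (hq : IsPrimePow q)
    (hK : Fintype.card K = q ^ 3) : All p ↥(Cfsg.Lie.twistedD4 K q) := by
  obtain ⟨x, hx, h⟩ := Cfsg.Agent.S2462.result p q hq hK
  exact all_of_cover ((Nat.Prime.coprime_iff_not_dvd Fact.out).2 hx).symm h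

/-- `p ≥ 5` : two `p`-elements and two `p'`-elements -/
theorem pw_of_own {G : Type*} [Group G] {p : ℕ} (hp : p.Prime) (h5 : 5 ≤ p)
    (h : ∀ g : G, ∃ a b : G, g = a * b ∧ (∃ k, a ^ p ^ k = 1) ∧ ∃ k, b ^ p ^ k = 1) (h' : All p G) : Pw G := by
  have key : ∀ n : ℕ, p.Coprime n → All n G := fun n hn => All.of_two_pgroup hn h
  refine ⟨key 6 ?_, fun r hr hr5 => ?_⟩
  · refine (Nat.Prime.coprime_iff_not_dvd hp).2 fun hd => ?_
    have h6 := Nat.le_of_dvd (by norm_num) hd
    have : p = 5 ∨ p = 6 := by omega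
    rcases this with rfl | rfl
    · omega
    · exact absurd hp (by decide)
  · by_cases e : r = p
    · subst e; exact h'
    · exact key r ((Nat.coprime_primes hp hr).2 (Ne.symm e))

/-- the same for `r = 2, 3` -/
theorem pw_of_six {G : Type*} [Group G] {p : ℕ} (hp : p.Prime) (h5 : p < 5)
    (h : ∀ g : G, ∃ a b : G, g = a * b ∧ (∃ k, a ^ p ^ k = 1) ∧ ∃ k, b ^ p ^ k = 1) (h' : All 6 G) : Pw G :=
  ⟨h', fun r hr hr5 => All.of_two_pgroup ((Nat.coprime_primes hp hr).2 (by omega)) h⟩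

end Cfsg.Agent.H335.Pw
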